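import Cfsg.Agent.SmallGroups.DegreeThree
import Cfsg.Agent.DihBlock.Klein
import Cfsg.Agent.Linear.OrderSixty
import Cfsg.Agent.BlkChar.PModular
import Cfsg.Agent.Char.Burnside
import Cfsg.Agent.S0948
import Cfsg.Agent.S0992

/-!
# Simple groups of order `4 * 3 ^ i * r ^ j`

The principal 2-block equations force a character of degree three whose values on the coset of an
involution show that the involution centralizer centralizes the four-group; the group then has a
subgroup of index five.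
-/

set_option autoImplicit false
set_option linter.unusedSectionVars false
set_option linter.style.haveILetI false

open Cfsg Subgroup

namespace Cfsg.Agent.SmallGroups.KleinThreePrimes

universe u

theorem eq_of_pow_add_pow {r n m y : ℕ} (hr : 2 < r) (h : r ^ n + r ^ m = 2 * r ^ y) :
    n = y ∧ m = y := by
  wlog hnm : n ≤ m generalizing n m
  · exact (this (n := m) (m := n) (by omega) (by omega)).symm
  have hp : ∀ k, 0 < r ^ k := fun k => pow_pos (by omega) k
  rcases lt_trichotomy y n with hyn | rfl | hny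
  · exfalso
    have h1 := Nat.pow_lt_pow_right (show 1 < r by omega) hyn
    have h2 := Nat.pow_le_pow_right (show 0 < r by omega) hnm
    omega
  · exact ⟨rfl, Nat.pow_right_injective (by omega : 2 ≤ r) (show r ^ m = r ^ y by omega)⟩
  · exfalso
    obtain ⟨u, rfl⟩ := Nat.exists_eq_add_of_lt hny
    rcases Nat.eq_or_lt_of_le hnm with rfl | hlt
    · have := Nat.pow_lt_pow_right (show 1 < r by omega) hny
      omega
    obtain ⟨w, rfl⟩ := Nat.exists_eq_add_of_lt hlt
    have h1 : 1 + r * r ^ w = 2 * (r * r ^ u) := by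
      refine Nat.eq_of_mul_eq_mul_left (hp n) ?_
      have e1 : r ^ (n + w + 1) = r ^ n * (r * r ^ w) := by ring
      have e2 : r ^ (n + u + 1) = r ^ n * (r * r ^ u) := by ring
      rw [e1, e2] at h
      rw [mul_add, mul_one]; linarith
    have h2 : r ∣ 1 + r * r ^ w := h1 ▸ ⟨2 * r ^ u, by ring⟩
    rw [Nat.dvd_add_left (dvd_mul_right _ _), Nat.dvd_one] at h2
    omega

/-- All prime divisors of `n` are `3` or `r`. -/
def Two (r n : ℕ) : Prop := ∀ s : ℕ, s.Prime → s ∣ n → s = 3 ∨ s = r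

theorem Two.cases {r n : ℕ} (h : Two r n) (h1 : n ≠ 1) : 3 ∣ n ∨ r ∣ n := by
  obtain ⟨s, hs, hd⟩ := Nat.exists_prime_and_dvd h1
  rcases h s hs hd with rfl | rfl
  · exact Or.inl hd
  · exact Or.inr hd

theorem Two.eq_three_pow {r n : ℕ} (h : Two r n) (h0 : n ≠ 0) (h1 : ¬ r ∣ n) : ∃ k, n = 3 ^ k :=
  ⟨_, Nat.eq_prime_pow_of_unique_prime_dvd h0 fun {d} hd hdn =>
    (h d hd hdn).resolve_right fun e => h1 (e ▸ hdn)⟩

theorem Two.eq_pow {r n : ℕ} (h : Two r n) (h0 : n ≠ 0) (h1 : ¬ 3 ∣ n) : ∃ k, n = r ^ k :=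
  ⟨_, Nat.eq_prime_pow_of_unique_prime_dvd h0 fun {d} hd hdn =>
    (h d hd hdn).resolve_left fun e => h1 (e ▸ hdn)⟩

theorem coprime_of_lin {s m n k : ℕ} (hs : s.Prime) (h : k * m = n + 1) (hm : s ∣ m) : ¬ s ∣ n :=
  fun hn => hs.not_dvd_one ((Nat.dvd_add_right hn).mp (h ▸ hm.mul_left k))

/-- The degrees `1 + a = b + c` of the principal block. -/
theorem degrees_eq {r a' b' c' : ℕ} (hr : r.Prime) (hr5 : 5 ≤ r)
    (h : 1 + (4 * a' + 1) = (4 * b' + 3) + (4 * c' + 3))
    (pa : Two r (4 * a' + 1)) (pb : Two r (4 * b' + 3)) (pc : Two r (4 * c' + 3))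
    (pA : Two r (2 * a' + 1)) (pB : Two r (2 * b' + 1)) (pC : Two r (2 * c' + 1)) :
    r = 5 ∧ a' = 1 ∧ b' = 0 ∧ c' = 0 := by
  set a := 4 * a' + 1 with ha
  set b := 4 * b' + 3 with hb
  set c := 4 * c' + 3 with hc
  set A := 2 * a' + 1 with hA
  set B := 2 * b' + 1 with hB
  set C := 2 * c' + 1 with hC
  have h3 : ¬ r ∣ 3 := fun hd => by have := Nat.le_of_dvd (by norm_num) hd; omega
  have caA : ∀ s : ℕ, s.Prime → s ∣ A → ¬ s ∣ a := fun s hs hd =>
    coprime_of_lin hs (show 2 * A = a + 1 by omega) hd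
  have cbB : ∀ s : ℕ, s.Prime → s ∣ b → ¬ s ∣ 2 * B := fun s hs hd =>
    coprime_of_lin hs (show 1 * b = 2 * B + 1 by omega) hd
  have ccC : ∀ s : ℕ, s.Prime → s ∣ c → ¬ s ∣ 2 * C := fun s hs hd =>
    coprime_of_lin hs (show 1 * c = 2 * C + 1 by omega) hd
  -- no degree is divisible by both primes
  have nb : ¬ (3 ∣ b ∧ r ∣ b) := fun ⟨u, v⟩ => by
    have hB1 : B = 1 := by
      by_contra h1
      rcases pB.cases h1 with w | w
      · exact cbB 3 Nat.prime_three u (w.mul_left 2)
      · exact cbB r hr v (w.mul_left 2)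
    exact h3 (by rwa [show b = 3 by omega] at v)
  have nc : ¬ (3 ∣ c ∧ r ∣ c) := fun ⟨u, v⟩ => by
    have hC1 : C = 1 := by
      by_contra h1
      rcases pC.cases h1 with w | w
      · exact ccC 3 Nat.prime_three u (w.mul_left 2)
      · exact ccC r hr v (w.mul_left 2)
    exact h3 (by rwa [show c = 3 by omega] at v)
  have hsum : b + c = 2 * A := by omega
  have hA1 : A ≠ 1 := by omega
  have h32 : ¬ 3 ∣ 2 := by norm_num
  have hr2 : ¬ r ∣ 2 := fun hd => by have := Nat.le_of_dvd (by norm_num) hd; omega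
  rcases pa.cases (by omega) with ka | ka
  · -- `3 ∣ a`
    have hA3 : ¬ 3 ∣ A := fun w => caA 3 Nat.prime_three w ka
    have hAr : r ∣ A := (pA.cases hA1).resolve_left hA3
    have hb3 : ¬ 3 ∣ b := fun w => by
      by_cases hc3 : 3 ∣ c
      · exact (Nat.prime_three.dvd_mul.mp (hsum ▸ dvd_add w hc3)).elim h32 hA3
      · have hcr : r ∣ c := (pc.cases (by omega)).resolve_left hc3
        exact nb ⟨w, (Nat.dvd_add_left hcr).mp (hsum ▸ hAr.mul_left 2)⟩
    have hbr : r ∣ b := (pb.cases (by omega)).resolve_left hb3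
    have hcr : r ∣ c := (Nat.dvd_add_right hbr).mp (hsum ▸ hAr.mul_left 2)
    have hc3 : ¬ 3 ∣ c := fun w => nc ⟨w, hcr⟩
    obtain ⟨y, hy⟩ := pA.eq_pow (by omega) hA3
    obtain ⟨n, hn⟩ := pb.eq_pow (by omega) hb3
    obtain ⟨m, hm⟩ := pc.eq_pow (by omega) hc3
    obtain ⟨e1, e2⟩ := eq_of_pow_add_pow (by omega) (show r ^ n + r ^ m = 2 * r ^ y by
      rw [← hn, ← hm, ← hy]; exact hsum)
    have hbA : b = A := by rw [hn, hy, e1]
    exfalso
    rcases eq_or_ne B 1 with h1 | h1
    · exact h3 (by rwa [show b = 3 by omega] at hbr)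
    rcases pB.cases h1 with w | w
    · have : 3 ∣ 4 * B + 1 := by rwa [show 4 * B + 1 = a by omega]
      rw [Nat.dvd_add_right (w.mul_left 4)] at this
      omega
    · exact cbB r hr hbr (w.mul_left 2)
  · -- `r ∣ a`
    have hAr : ¬ r ∣ A := fun w => caA r hr w ka
    have hA3 : 3 ∣ A := (pA.cases hA1).resolve_right hAr
    have hbr : ¬ r ∣ b := fun w => by
      by_cases hcr : r ∣ c
      · exact (hr.dvd_mul.mp (hsum ▸ dvd_add w hcr)).elim hr2 hAr
      · have hc3 : 3 ∣ c := (pc.cases (by omega)).resolve_right hcr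
        exact nb ⟨(Nat.dvd_add_left hc3).mp (hsum ▸ hA3.mul_left 2), w⟩
    have hb3 : 3 ∣ b := (pb.cases (by omega)).resolve_right hbr
    have hc3 : 3 ∣ c := (Nat.dvd_add_right hb3).mp (hsum ▸ hA3.mul_left 2)
    have hcr : ¬ r ∣ c := fun w => nc ⟨hc3, w⟩
    obtain ⟨y, hy⟩ := pA.eq_three_pow (by omega) hAr
    obtain ⟨n, hn⟩ := pb.eq_three_pow (by omega) hbr
    obtain ⟨m, hm⟩ := pc.eq_three_pow (by omega) hcr
    obtain ⟨e1, e2⟩ := eq_of_pow_add_pow (by norm_num) (show 3 ^ n + 3 ^ m = 2 * 3 ^ y by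
      rw [← hn, ← hm, ← hy]; exact hsum)
    have hbA : b = A := by rw [hn, hy, e1]
    have hcA : c = A := by rw [hm, hy, e2]
    rcases eq_or_ne B 1 with h1 | h1
    · have ha5 : a = 5 := by omega
      refine ⟨(Nat.prime_dvd_prime_iff_eq hr (by norm_num)).mp (ha5 ▸ ka), ?_, ?_, ?_⟩ <;> omega
    exfalso
    rcases pB.cases h1 with w | w
    · exact cbB 3 Nat.prime_three hb3 (w.mul_left 2)
    · have : r ∣ 4 * B + 1 := by rwa [show 4 * B + 1 = a by omega]
      rw [Nat.dvd_add_right (w.mul_left 4)] at this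
      exact hr.not_dvd_one this

/-- The case of two positive signs is impossible. -/
theorem no_plus {r x R q : ℕ} (hr : r.Prime) (hq : q = 2 * x + 1)
    (hR : q + 1 = 4 * R) (hx1 : 1 < x) (px : Two r x) (pq : Two r q) (pR : Two r R) : False := by
  obtain ⟨s1, h1, d1⟩ := Nat.exists_prime_and_dvd (show x ≠ 1 by omega)
  obtain ⟨s2, h2, d2⟩ := Nat.exists_prime_and_dvd (show q ≠ 1 by omega)
  obtain ⟨s3, h3, d3⟩ := Nat.exists_prime_and_dvd (show R ≠ 1 by omega)
  have n12 : s1 ≠ s2 := fun e => coprime_of_lin h2 (show 1 * q = 2 * x + 1 by omega) d2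
    (e ▸ d1.mul_left 2)
  have n13 : s1 ≠ s3 := fun e => coprime_of_lin h3 (show 2 * R = x + 1 by omega) d3 (e ▸ d1)
  have n23 : s2 ≠ s3 := fun e => coprime_of_lin h3 (show 4 * R = q + 1 by omega) d3 (e ▸ d2)
  rcases px s1 h1 d1 with a | a <;> rcases pq s2 h2 d2 with b | b <;>
    rcases pR s3 h3 d3 with c | c <;> omega

variable {G : Type u} [Group G] [Finite G] [IsSimpleGroup G]

/-- A simple group of order `4 * 3 ^ i * r ^ j` has order sixty. -/
theorem card_eq (hG : ¬ IsMulCommutative G) {r i j : ℕ} (hr : r.Prime) (hr5 : 5 ≤ r)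
    (hcard : Nat.card G = 4 * (3 ^ i * r ^ j)) : Nat.card G = 60 := by
  classical
  letI := Fintype.ofFinite G
  haveI : Fact (Nat.Prime 2) := ⟨Nat.prime_two⟩
  set g := 3 ^ i * r ^ j with hg
  have hgodd : Odd g := (Odd.pow ⟨1, rfl⟩).mul (Odd.pow (hr.odd_of_ne_two (by omega)))
  have hg0 : 0 < g := hgodd.pos
  have pg : Two r g := fun s hs hd => by
    rcases hs.dvd_mul.mp hd with h | h
    · exact Or.inl ((Nat.prime_dvd_prime_iff_eq hs Nat.prime_three).mp (hs.dvd_of_dvd_pow h))
    · exact Or.inr ((Nat.prime_dvd_prime_iff_eq hs hr).mp (hs.dvd_of_dvd_pow h))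
  have hg1 : g ≠ 1 := fun h => by
    rw [h] at hcard
    have hsol : Group.IsSolvable G := Char.solvable_of_card_eq_pow_mul_pow 2 3 Nat.prime_two
      Nat.prime_three _ hcard fun s hs hd => Or.inl
        ((Nat.prime_dvd_prime_iff_eq hs Nat.prime_two).mp
          (hs.dvd_of_dvd_pow (show s ∣ 2 ^ 2 by simpa using hd)))
    exact hG ⟨⟨IsSimpleGroup.comm_iff_isSolvable.mpr hsol⟩⟩
  have hnc : ¬ ∃ N : Subgroup G, N.Normal ∧ Nat.card N = g := by
    rintro ⟨N, hN, hc⟩
    rcases hN.eq_bot_or_eq_top with e | e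
    · rw [e, Subgroup.card_bot] at hc; exact hg1 hc.symm
    · rw [e, Subgroup.card_top, hcard] at hc; omega
  have heven : Even (Nat.card G) := ⟨2 * g, by omega⟩
  have h8 : ¬ 8 ∣ Nat.card G := fun h => by
    obtain ⟨k, hk⟩ := h
    obtain ⟨l, hl⟩ := hgodd
    omega
  obtain ⟨P⟩ := (inferInstance : Nonempty (Sylow 2 G))
  obtain ⟨hK4, hrel⟩ := S0992.result hG heven h8 P
  have hP4 : Nat.card (P : Subgroup G) = 4 := IsKleinFour.card_four
  obtain ⟨J₀, hJ₀⟩ := exists_prime_orderOf_dvd_card' (G := (P : Subgroup G)) 2 (by rw [hP4]; norm_num)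
  set J : G := (J₀ : G) with hJdef
  have hJ2 : orderOf J = 2 := by rw [hJdef, Subgroup.orderOf_coe, hJ₀]
  obtain ⟨τ, D, hone⟩ := DihBlock.klein_setup hgodd hcard hnc P J₀.2 hJ2
  obtain ⟨M, hM⟩ := BlkChar.exists_isPModular 2 Nat.prime_two
  have hone' : ∀ s t : G, orderOf s = 2 → orderOf t = 2 → IsConj s t := fun s t hs ht =>
    (hone s hs).symm.trans (hone t ht)
  obtain ⟨ζ₂, ζ₃, ζ₄, ε, hε, hz2, hz3, h23, h24, h34, hB, hval, hm2, hm3, hm4, -⟩ :=
    S0948.result M hM P hK4 hone'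
  obtain ⟨v2, v3, v4⟩ := hval J hJ2
  have hz4 : (ζ₄ : G → ℂ) ≠ fun _ => 1 := fun e => by
    rw [e] at v4; norm_num at v4
  obtain ⟨hlin, heq⟩ := DihBlock.klein_equation hM D hone hB ⟨hz2, hz3, hz4, h23, h24, h34⟩
    (ε₁ := 1) (ε₂ := ε) (ε₃ := -1) ⟨Or.inl rfl, hε, Or.inr rfl⟩
    ⟨by simpa using v2, v3, by simpa using v4⟩
  -- the degrees divide `g`
  have hdeg : ∀ χ : IrrCharacter G, (χ : G → ℂ) ≠ (fun _ => 1) → Odd (charDegree (χ : G → ℂ)) →
      1 < charDegree (χ : G → ℂ) ∧ charDegree (χ : G → ℂ) ∣ g := fun χ hχ ho => by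
    refine ⟨(DegThree.faithful hG χ.2 hχ).2, ?_⟩
    obtain ⟨d, -, hd, hdd⟩ := Char.irr_degree_dvd_card χ.2
    have he : charDegree (χ : G → ℂ) = d := Char.charDegree_of_eq hd
    rw [hcard] at hdd
    rw [he] at ho ⊢
    exact (Nat.Coprime.pow_right 2 ((Nat.coprime_two_right).mpr ho)).dvd_of_dvd_mul_left hdd
  -- the centralizers
  obtain ⟨Q, N, hN, hNo, hcompl, hcardC, hmem⟩ := D.exists_local
  haveI := hN
  set C := Nat.card (centralizer ({J} : Set G)) with hC
  set DP := Nat.card (centralizer ((P : Subgroup G) : Set G)) with hDP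
  set K := Nat.card N with hK
  have hCJ : centralizer ({J ^ 1} : Set G) = centralizer ({J} : Set G) := by rw [pow_one]
  have hC4 : C = 4 * K := by rw [hC, ← hCJ, ← hcardC, hK]
  have hKodd : Odd K := Nat.odd_iff.mpr (Nat.two_dvd_ne_zero.mp hNo)
  have hKg : K ∣ g := by
    have h := Subgroup.card_subgroup_dvd_card (centralizer ({J} : Set G))
    rw [← hC, hC4, hcard] at h
    exact Nat.dvd_of_mul_dvd_mul_left (by norm_num) h
  obtain ⟨k, hk⟩ : DP ∣ C := Subgroup.card_dvd_of_le
    (centralizer_le (Set.singleton_subset_iff.mpr J₀.2))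
  obtain ⟨KP, hKP⟩ : 4 ∣ DP := by
    rw [← hP4]
    refine Subgroup.card_dvd_of_le ?_
    intro x hx
    rw [mem_centralizer_iff]
    intro y hy
    exact congrArg Subtype.val ((Invol.klein_comm P hK4).is_comm.comm ⟨y, hy⟩ ⟨x, hx⟩)
  have hKk : K = KP * k := by rw [hC4, hKP, mul_assoc] at hk; omega
  have hkg : k ∣ g := (hKk ▸ dvd_mul_left k KP).trans hKg
  have hKP0 : 0 < KP := Nat.pos_of_ne_zero fun e => by
    have : 0 < DP := Nat.card_pos
    rw [hKP, e] at this; omega
  have hk0 : 0 < k := Nat.pos_of_ne_zero fun e => by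
    have : 0 < C := Nat.card_pos
    rw [hk, e, mul_zero] at this; omega
  have hrhs : 8 * (C : ℚ) ^ 3 / (DP : ℚ) ^ 2 = 32 * ((K : ℚ) * (k : ℚ) ^ 2) := by
    rw [hC4, hKP, hKk]; push_cast
    have : (KP : ℚ) ≠ 0 := Nat.cast_ne_zero.mpr hKP0.ne'
    field_simp
    ring
  rw [hrhs, hcard] at heq
  set a := charDegree (ζ₂ : G → ℂ)
  set b := charDegree (ζ₃ : G → ℂ)
  set c := charDegree (ζ₄ : G → ℂ)
  have ha0 : (a : ℚ) ≠ 0 := Nat.cast_ne_zero.mpr (Char.irr_charDegree_spec ζ₂.2).1.ne'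
  have hb0 : (b : ℚ) ≠ 0 := Nat.cast_ne_zero.mpr (Char.irr_charDegree_spec ζ₃.2).1.ne'
  have hc0 : (c : ℚ) ≠ 0 := Nat.cast_ne_zero.mpr (Char.irr_charDegree_spec ζ₄.2).1.ne'
  obtain ⟨a', ha⟩ : ∃ a', a = 4 * a' + 1 := ⟨a / 4, by omega⟩
  obtain ⟨c', hc⟩ : ∃ c', c = 4 * c' + 3 := ⟨c / 4, by omega⟩
  obtain ⟨ha1, hag⟩ := hdeg ζ₂ hz2 (Nat.odd_iff.mpr (by omega))
  obtain ⟨hc1, hcg⟩ := hdeg ζ₄ hz4 (Nat.odd_iff.mpr (by omega))
  push_cast at heq hlin
  rcases hε with rfl | rfl
  · -- two positive signs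
    exfalso
    obtain ⟨hab, R, hR⟩ := DihBlock.klein_degrees_eq hM D hone hB ⟨hz2, hz3, hz4, h23, h24, h34⟩
      ⟨v2, by simpa using v3, v4⟩
    have hca : c = 2 * a + 1 := by
      change a = b at hab
      omega
    have hR' : (a : ℚ) + 1 = 2 * R := by
      have : a + 1 = 2 * R := by omega
      exact_mod_cast this
    have key : g * R ^ 2 = a * c * (K * k ^ 2) := by
      have hcq : (c : ℚ) = 2 * a + 1 := by exact_mod_cast hca
      have hbq : (b : ℚ) = a := by exact_mod_cast (show b = a from hab.symm)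
      rw [hbq] at heq
      field_simp at heq
      have : (g : ℚ) * R ^ 2 = a * c * (K * k ^ 2) := by
        rw [hcq] at heq ⊢
        refine mul_left_cancel₀ (mul_ne_zero (by norm_num : (32 : ℚ) ≠ 0) ha0) ?_
        linear_combination (a : ℚ) * heq - 8 * (a : ℚ) * g * (2 * R + a + 1) * hR'
      exact_mod_cast this
    refine no_plus hr hca hR ha1 (fun s hs hd => pg s hs (hd.trans hag))
      (fun s hs hd => pg s hs (hd.trans hcg)) fun s hs hd => ?_
    have hd' : s ∣ a * c * (K * k ^ 2) := key ▸ dvd_mul_of_dvd_right (dvd_pow hd two_ne_zero) g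
    rcases hs.dvd_mul.mp hd' with h | h
    · rcases hs.dvd_mul.mp h with h | h
      · exact pg s hs (h.trans hag)
      · exact pg s hs (h.trans hcg)
    · rcases hs.dvd_mul.mp h with h | h
      · exact pg s hs (h.trans hKg)
      · exact pg s hs ((hs.dvd_of_dvd_pow h).trans hkg)
  · obtain ⟨b', hb⟩ : ∃ b', b = 4 * b' + 3 := ⟨b / 4, by omega⟩
    obtain ⟨hb1, hbg⟩ := hdeg ζ₃ hz3 (Nat.odd_iff.mpr (by omega))
    have hlin' : 1 + a = b + c := by omega
    have key : g * ((2 * a' + 1) * ((2 * b' + 1) * (2 * c' + 1))) = a * (b * c) * (K * k ^ 2) := by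
      have haq : (a : ℚ) = 4 * a' + 1 := by exact_mod_cast ha
      have hbq : (b : ℚ) = 4 * b' + 3 := by exact_mod_cast hb
      have hcq : (c : ℚ) = 4 * c' + 3 := by exact_mod_cast hc
      have hl : 1 + (a : ℚ) = b + c := by exact_mod_cast hlin'
      have hA : 2 * (2 * (a' : ℚ) + 1) = a + 1 := by rw [haq]; ring
      field_simp at heq
      have h8' : (g : ℚ) * ((2 * (2 * a' + 1)) * ((2 * (2 * b' + 1)) * (2 * (2 * c' + 1))))
          = 8 * (a * (b * c) * (K * k ^ 2)) := by
        rw [hA, show 2 * (2 * (b' : ℚ) + 1) = b - 1 by rw [hbq]; ring,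
          show 2 * (2 * (c' : ℚ) + 1) = c - 1 by rw [hcq]; ring]
        have hc'' : (c : ℚ) = 1 + a - b := by linarith
        rw [hc''] at heq ⊢
        linear_combination heq / 4
      have : (g : ℚ) * ((2 * a' + 1) * ((2 * b' + 1) * (2 * c' + 1))) =
          a * (b * c) * (K * k ^ 2) := by linear_combination h8' / 8
      exact_mod_cast this
    have hprime : ∀ s : ℕ, s.Prime → s ∣ (2 * a' + 1) * ((2 * b' + 1) * (2 * c' + 1)) →
        s = 3 ∨ s = r := fun s hs hd => by
      have hd' : s ∣ a * (b * c) * (K * k ^ 2) := key ▸ hd.mul_left g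
      rcases hs.dvd_mul.mp hd' with h | h
      · rcases hs.dvd_mul.mp h with h | h
        · exact pg s hs (h.trans hag)
        · rcases hs.dvd_mul.mp h with h | h
          · exact pg s hs (h.trans hbg)
          · exact pg s hs (h.trans hcg)
      · rcases hs.dvd_mul.mp h with h | h
        · exact pg s hs (h.trans hKg)
        · exact pg s hs ((hs.dvd_of_dvd_pow h).trans hkg)
    obtain ⟨-, rfl, rfl, rfl⟩ := degrees_eq hr hr5 (by omega : 1 + (4 * a' + 1) =
        (4 * b' + 3) + (4 * c' + 3))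
      (fun s hs hd => pg s hs (hd.trans (ha ▸ hag)))
      (fun s hs hd => pg s hs (hd.trans (hb ▸ hbg)))
      (fun s hs hd => pg s hs (hd.trans (hc ▸ hcg)))
      (fun s hs hd => hprime s hs (hd.mul_right _))
      (fun s hs hd => hprime s hs ((hd.mul_right _).mul_left _))
      (fun s hs hd => hprime s hs ((hd.mul_left _).mul_left _))
    -- the character of degree three shows that `N` centralizes `P`
    obtain ⟨n, ρ, hρ⟩ := Char.isCharacter_of_irr ζ₄.2
    have hdeg3 : (ζ₄ : G → ℂ) 1 = 3 := by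
      rw [(Char.irr_charDegree_spec ζ₄.2).2]; exact_mod_cast (show c = 3 by omega)
    have hV : Module.finrank ℂ (Fin n → ℂ) = 3 := by
      have := ρ.char_one
      rw [hρ, hdeg3] at this
      exact_mod_cast this.symm
    obtain ⟨u, hu, -, hline⟩ := DegThree.exists_line ρ hV
      (by rw [← pow_two, ← hJ2, pow_orderOf_eq_one] : J * J = 1) (by rw [hρ]; exact v4)
    have hcomm : ∀ y : centralizer ({J ^ 1} : Set G), (y : G) * J = J * (y : G) := fun y => by
      simpa using mem_centralizer_singleton_iff.mp y.2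
    have hvQ : (⟨J, D.P_le_centralizer D.mem_σ⟩ : centralizer ({J ^ 1} : Set G)) ∈
        (Q : Subgroup _) := (hmem _).mpr D.mem_σ
    have hJne : J ≠ 1 := fun e => by rw [e, orderOf_one] at hJ2; omega
    have hval' : ∀ w ∈ N, ρ.character (J * (w : G)) = -1 := fun w hw => by
      have h := DihBlock.block_value_coset hM rfl hcompl hNo hvQ
        (D.hasComplement_mem D.mem_σ hJne)
        (χ := ζ₄) (DihBlock.mem_pb.mpr (by rw [hB]; exact Or.inr (Or.inr (Or.inr rfl))))
        (DihBlock.mem_cosetSet.mpr ⟨w, hw, rfl⟩)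
      rw [Subgroup.coe_mul] at h
      rw [hρ]
      exact h.trans v4
    have hNP : ∀ y ∈ N, τ * ((y : G)) = (y : G) * τ := by
      intro y hy
      let t : centralizer ({J ^ 1} : Set G) := ⟨τ, D.P_le_centralizer D.mem_τ⟩
      have hw : t * y * t⁻¹ * y⁻¹ ∈ N := mul_mem (hN.conj_mem y hy t) (inv_mem hy)
      obtain ⟨l, hl, -⟩ := hline (y : G) (hcomm y)
      obtain ⟨m, hm, -⟩ := hline τ (hcomm t)
      obtain ⟨lw, hlw, hsum⟩ := hline ((t * y * t⁻¹ * y⁻¹ : centralizer ({J ^ 1} : Set G)) : G)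
        (hcomm _)
      have hne : m * l ≠ 0 := fun h0 => by
        have h1 : ρ (τ * (y : G)) u = 0 := by
          rw [map_mul, Module.End.mul_apply, hl, map_smul, hm, smul_smul, mul_comm, h0, zero_smul]
        have h2 : ρ ((τ * (y : G))⁻¹) (ρ (τ * (y : G)) u) = u := by
          rw [← Module.End.mul_apply, ← map_mul, inv_mul_cancel, map_one, Module.End.one_apply]
        rw [h1, map_zero] at h2
        exact hu h2.symm
      have hlw1 : lw = 1 := by
        have e : ((t * y * t⁻¹ * y⁻¹ : centralizer ({J ^ 1} : Set G)) : G) * ((y : G) * τ)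
            = τ * (y : G) := by
          simp only [Subgroup.coe_mul, Subgroup.coe_inv, t]; group
        have h1 := congrArg (fun z => ρ z u) e
        simp only [map_mul, Module.End.mul_apply, hl, hm, map_smul, hlw, smul_smul] at h1
        have h2 := smul_left_injective ℂ hu h1
        exact mul_left_cancel₀ hne (by linear_combination h2)
      rw [hval' _ hw, hlw1] at hsum
      have h3 : (ζ₄ : G → ℂ) ((t * y * t⁻¹ * y⁻¹ : centralizer ({J ^ 1} : Set G)) : G)
          = (ζ₄ : G → ℂ) 1 := by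
        rw [← hρ, ρ.char_one, hV]; push_cast; linear_combination hsum
      have h4 := (DegThree.faithful hG ζ₄.2 hz4).1 _ h3
      simp only [Subgroup.coe_mul, Subgroup.coe_inv, t] at h4
      exact mul_inv_eq_iff_eq_mul.mp (mul_inv_eq_one.mp h4)
    have hk1 : k = 1 := by
      have hle : N.map (centralizer ({J ^ 1} : Set G)).subtype ≤
          centralizer ((P : Subgroup G) : Set G) := by
        rintro _ ⟨y, hy, rfl⟩
        rw [mem_centralizer_iff]
        intro x hx
        have c1 : Commute J (y : G) := (hcomm y).symm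
        have c2 : Commute τ (y : G) := hNP y hy
        rcases D.cases hx with ⟨e, -, rfl⟩ | ⟨e, -, rfl⟩
        · exact (c1.pow_left e).eq
        · exact ((c1.pow_left e).mul_left c2).eq
      have hd : K ∣ DP := by
        refine dvd_trans ?_ (Subgroup.card_dvd_of_le hle)
        exact (Nat.card_congr (Subgroup.equivMapOfInjective N _ (subtype_injective _)).toEquiv).dvd
      have hKP' : K ∣ KP := by
        rw [hKP] at hd
        exact (Nat.Coprime.pow_right 2 (Nat.coprime_two_right.mpr hKodd)).dvd_of_dvd_mul_left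
          (by simpa using hd)
      have h1 := Nat.le_of_dvd hKP0 hKP'
      rw [hKk] at h1
      have : k ≤ 1 := Nat.le_of_mul_le_mul_left (by simpa using h1) hKP0
      omega
    subst hk1
    have hg15 : g = 15 * K := by
      have : g * 3 = 45 * K := by
        rw [ha, hb, hc] at key
        linarith
      omega
    -- a subgroup of index five
    have hle := Subgroup.centralizer_le_normalizer ((P : Subgroup G) : Set G)
    have hnorm : Nat.card (normalizer ((P : Subgroup G) : Set G)) = DP * 3 := by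
      rw [← Subgroup.card_mul_index
        ((centralizer ((P : Subgroup G) : Set G)).subgroupOf (normalizer ((P : Subgroup G) : Set G))),
        Nat.card_congr (Subgroup.subgroupOfEquivOfLe hle).toEquiv,
        show ((centralizer ((P : Subgroup G) : Set G)).subgroupOf
          (normalizer ((P : Subgroup G) : Set G))).index = 3 from hrel]
    have hidx : (normalizer ((P : Subgroup G) : Set G)).index = 5 := by
      have h := Subgroup.card_mul_index (normalizer ((P : Subgroup G) : Set G))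
      rw [hnorm, hKP, hcard, hg15, hKk, mul_one] at h
      refine Nat.eq_of_mul_eq_mul_left (show 0 < 4 * KP * 3 by omega) ?_
      rw [h]; ring
    have htop : normalizer ((P : Subgroup G) : Set G) ≠ ⊤ := fun e => by
      rw [e, Subgroup.index_top] at hidx; omega
    have h5 := two_mul_card_dvd_factorial hG _ htop
    rw [hidx, hcard, hg15, show Nat.factorial 5 = 120 from rfl] at h5
    have h6 := Nat.le_of_dvd (by norm_num) h5
    have : 0 < K := Nat.card_pos
    omega

/-- A simple group of order `4 * 3 ^ i * r ^ j` is `A₅`. -/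
theorem nonempty_equiv (hG : ¬ IsMulCommutative G) {r i j : ℕ} (hr : r.Prime) (hr5 : 5 ≤ r)
    (hcard : Nat.card G = 4 * (3 ^ i * r ^ j)) : Nonempty (G ≃* alternatingGroup (Fin 5)) :=
  Linear.simple_order_sixty_iso (card_eq hG hr hr5 hcard)

end Cfsg.Agent.SmallGroups.KleinThreePrimes
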