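import Cfsg.Agent.SmallGroups.DegreeThree
import Cfsg.Agent.LinearBound.SmallPSolvable
import Cfsg.Agent.Char.Burnside
import Cfsg.Agent.PSolv.Basic
import Cfsg.Agent.S4485
import Cfsg.Agent.S4500

/-!
# No simple group has order `3 * 2 ^ i * r ^ 2`

Such a group has a faithful representation of degree three in which some element of order `r` has a
repeated eigenvalue; the stabilizer of a suitable line then lies in the centralizer of an
involution, whose index is a power of two.
-/

set_option autoImplicit false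
set_option linter.unusedSectionVars false
set_option linter.style.haveILetI false

open Cfsg Subgroup Module

namespace Cfsg.Agent.SmallGroups.ThreeTwoPowSquare

universe u v

variable {G : Type u} [Group G] {V : Type v} [AddCommGroup V] [Module ℂ V]

/-- The stabilizer of a line. -/
def lineStab (ρ : Representation ℂ G V) (v : V) (hv : v ≠ 0) : Subgroup G where
  carrier := {h | ∃ l : ℂ, ρ h v = l • v}
  one_mem' := ⟨1, by simp⟩
  mul_mem' := by
    rintro a b ⟨l, hl⟩ ⟨m, hm⟩
    exact ⟨m * l, by rw [map_mul, Module.End.mul_apply, hm, map_smul, hl, smul_smul]⟩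
  inv_mem' := by
    rintro a ⟨l, hl⟩
    have h2 : ρ a⁻¹ (ρ a v) = v := by
      rw [← Module.End.mul_apply, ← map_mul, inv_mul_cancel, map_one, Module.End.one_apply]
    rw [hl, map_smul] at h2
    have hl0 : l ≠ 0 := fun h => hv (by rw [← h2, h, zero_smul])
    refine ⟨l⁻¹, ?_⟩
    conv_rhs => rw [← h2]
    rw [smul_smul, inv_mul_cancel₀ hl0, one_smul]

/-- The scalar by which the stabilizer of a line acts on it. -/
noncomputable def lineChar (ρ : Representation ℂ G V) (v : V) (hv : v ≠ 0) :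
    lineStab ρ v hv →* ℂ where
  toFun h := Classical.choose h.2
  map_one' := by
    have h := Classical.choose_spec (1 : lineStab ρ v hv).2
    refine smul_left_injective ℂ hv ?_
    simp only
    rw [← h]; simp
  map_mul' a b := by
    have key : ∀ l m : ℂ, ρ (a : G) v = l • v → ρ (b : G) v = m • v →
        ρ ((a * b : lineStab ρ v hv) : G) v = (l * m) • v := fun l m h1 h2 => by
      rw [Subgroup.coe_mul, map_mul, Module.End.mul_apply, h2, map_smul, h1, smul_smul, mul_comm]
    exact smul_left_injective ℂ hv ((Classical.choose_spec (a * b).2).symm.trans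
      (key _ _ (Classical.choose_spec a.2) (Classical.choose_spec b.2)))

theorem lineChar_spec (ρ : Representation ℂ G V) (v : V) (hv : v ≠ 0) (h : lineStab ρ v hv) :
    ρ (h : G) v = lineChar ρ v hv h • v :=
  Classical.choose_spec h.2

theorem all_one {f : Fin 3 → ℂ} {p q : Fin 3} (hpq : p ≠ q) (hp : f p = 1) (hq : f q = 1)
    (hprod : f 0 * f 1 * f 2 = 1) (j : Fin 3) : f j = 1 := by
  fin_cases p <;> fin_cases q <;> fin_cases j <;> simp_all

variable [Finite G] [FiniteDimensional ℂ V]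

/-- In dimension three an involution-fixed vector spans the fixed line, so there is only one
involution fixing a given vector. -/
theorem involution_unique [IsSimpleGroup G] (hG : ¬ IsMulCommutative G) (ρ : Representation ℂ G V)
    (hV : finrank ℂ V = 3) (hf : ∀ g, ρ.character g = 3 → g = 1) {v : V} (hv : v ≠ 0) {s t : G}
    (hs : orderOf s = 2) (ht : orderOf t = 2) (hsv : ρ s v = v) (htv : ρ t v = v) : s = t := by
  have key : ∀ a : G, orderOf a = 2 → ρ a v = v → ∀ w, ∃ c : ℂ, w + ρ a w = c • v := by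
    intro a ha hav w
    have ha2 : a * a = 1 := by rw [← pow_two, ← ha, pow_orderOf_eq_one]
    obtain ⟨u, -, hw, -⟩ := DegThree.exists_line ρ hV ha2
      (DegThree.character_involution hG ρ hV hf ha)
    obtain ⟨c, hc⟩ := hw v
    obtain ⟨d, hd⟩ := hw w
    rw [hav, ← two_smul ℂ v] at hc
    have hc0 : c ≠ 0 := fun h => hv (by
      have h2 : (2 : ℂ) • v = 0 := by rw [hc, h, zero_smul]
      exact (smul_eq_zero.mp h2).resolve_left two_ne_zero)
    refine ⟨d * c⁻¹ * 2, ?_⟩
    rw [hd, mul_smul, hc, smul_smul, mul_assoc, inv_mul_cancel₀ hc0, mul_one]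
  have hz : ρ.character (s * t) = 3 := by
    obtain ⟨b, ε, hb, -, htr, -⟩ := DegThree.exists_basis_three ρ hV (s * t)
    have hε : ∀ i, ε i = 1 := by
      intro i
      by_contra hne
      obtain ⟨c, hc⟩ := key t ht htv (b i)
      obtain ⟨d, hd⟩ := key s hs hsv (b i)
      have h1 : ρ (s * t) (b i) = c • v - ρ s (b i) := by
        rw [map_mul, Module.End.mul_apply, eq_sub_of_add_eq' hc, map_sub, map_smul, hsv]
      have h2 : (ε i - 1) • b i = (c - d) • v := by
        rw [sub_smul, one_smul, ← hb i, h1, sub_smul, ← hd]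
        abel
      have h3 : b i = ((ε i - 1)⁻¹ * (c - d)) • v := by
        rw [mul_smul, ← h2, smul_smul, inv_mul_cancel₀ (sub_ne_zero.mpr hne), one_smul]
      have h4 : ρ (s * t) (b i) = b i := by
        rw [h3, map_smul, map_mul, Module.End.mul_apply, htv, hsv]
      rw [hb] at h4
      exact hne (smul_left_injective ℂ (b.ne_zero i) (by simpa using h4))
    rw [htr, hε, hε, hε]; norm_num
  have h := hf _ hz
  have ht2 : t * t = 1 := by rw [← pow_two, ← ht, pow_orderOf_eq_one]
  exact (mul_eq_one_iff_eq_inv.mp h).trans (inv_eq_of_mul_eq_one_right ht2)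

variable [IsSimpleGroup G]

theorem no_simple (hG : ¬ IsMulCommutative G) {r i : ℕ} (hr : r.Prime) (hr5 : 5 ≤ r)
    (hcard : Nat.card G = 3 * 2 ^ i * r ^ 2) : False := by
  classical
  haveI := Fact.mk hr
  have hr3 : r ≠ 3 := by omega
  have hr2 : r ≠ 2 := by omega
  -- a character of degree three
  obtain ⟨⟨χ, hχ, k, hk⟩, -⟩ := S4500.result (G := G) r 3 2 2 1 i hr Nat.prime_three Nat.prime_two
    hr3 hr2 (by norm_num) le_rfl (by rw [hcard]; ring)
  obtain ⟨hfaith, hdeg1⟩ := DegThree.faithful hG χ.2 hχ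
  have hk1 : k = 1 := by
    obtain ⟨d, -, hd, hdd⟩ := Char.irr_degree_dvd_card χ.2
    have he : d = 3 ^ k := (Char.charDegree_of_eq hd).symm.trans hk
    have hk0 : k ≠ 0 := fun h => by rw [h] at hk; omega
    by_contra hne
    have h9 : 9 ∣ 3 * (2 ^ i * r ^ 2) := by
      rw [← mul_assoc, ← hcard]
      refine dvd_trans ?_ (he ▸ hdd)
      exact (show (9 : ℕ) = 3 ^ 2 by norm_num) ▸ pow_dvd_pow 3 (by omega)
    have h3 : 3 ∣ 2 ^ i * r ^ 2 :=
      Nat.dvd_of_mul_dvd_mul_left (show 0 < 3 by norm_num) (by simpa using h9)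
    rcases Nat.prime_three.dvd_mul.mp h3 with h | h
    · exact absurd ((Nat.prime_dvd_prime_iff_eq Nat.prime_three Nat.prime_two).mp
        (Nat.prime_three.dvd_of_dvd_pow h)) (by norm_num)
    · exact hr3 ((Nat.prime_dvd_prime_iff_eq Nat.prime_three hr).mp
        (Nat.prime_three.dvd_of_dvd_pow h)).symm
  rw [hk1, pow_one] at hk
  obtain ⟨n, ρ, hρ⟩ := Char.isCharacter_of_irr χ.2
  have hχ1 : (χ : G → ℂ) 1 = 3 := by
    rw [(Char.irr_charDegree_spec χ.2).2, hk]; norm_num
  have hV : finrank ℂ (Fin n → ℂ) = 3 := by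
    have h := ρ.char_one
    rw [hρ, hχ1] at h
    exact_mod_cast h.symm
  have hf : ∀ g, ρ.character g = 3 → g = 1 := fun g hg => hfaith g (by rw [hχ1, ← hρ, hg])
  have hinj : Function.Injective ρ := fun a b hab => by
    refine mul_inv_eq_one.mp (hf _ ?_)
    rw [Representation.character, map_mul, hab, ← map_mul, mul_inv_cancel, map_one,
      LinearMap.trace_one, hV]
    norm_num
  -- the Sylow subgroup is abelian
  obtain ⟨P⟩ := (inferInstance : Nonempty (Sylow r G))
  have hP : ∀ Q : Sylow r G, Nat.card (Q : Subgroup G) = r ^ 2 := fun Q =>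
    card_sylow_subgroup (m := 3 * 2 ^ i) (by rw [hcard]; ring) (fun h => by
      rcases hr.dvd_mul.mp h with h | h
      · exact hr3 ((Nat.prime_dvd_prime_iff_eq hr Nat.prime_three).mp h)
      · exact hr2 ((Nat.prime_dvd_prime_iff_eq hr Nat.prime_two).mp (hr.dvd_of_dvd_pow h))) Q
  have hPcomm : ∀ Q : Sylow r G, ∀ a ∈ (Q : Subgroup G), ∀ b ∈ (Q : Subgroup G),
      a * b = b * a := fun Q a ha b hb =>
    congrArg Subtype.val
      (IsPGroup.commutative_of_card_eq_prime_sq (hP Q) ⟨a, ha⟩ ⟨b, hb⟩)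
  -- an element with a repeated eigenvalue
  obtain ⟨x, hxP, hx1, hxc⟩ : ∃ x ∈ (P : Subgroup G), x ≠ 1 ∧
      centralizer ({x} : Set G) ≠ centralizer ((P : Subgroup G) : Set G) := by
    by_contra hc
    push Not at hc
    have hn := S4485.result r hr ⟨3 * 2 ^ i * r, by rw [hcard]; ring⟩ P hc 2 (hP P)
      (χ : G → ℂ) (Char.isCharacter_of_irr χ.2) hfaith (by rw [hk]; nlinarith)
    rcases hn.eq_bot_or_eq_top with e | e
    · have := hP P
      rw [e, Subgroup.card_bot] at this; nlinarith
    · exact hG ⟨⟨fun a b => hPcomm P a (e ▸ Subgroup.mem_top a) b (e ▸ Subgroup.mem_top b)⟩⟩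
  obtain ⟨b, ε, hb, hε, htrx, hdetx⟩ := DegThree.exists_basis_three ρ hV x
  obtain ⟨i₀, i₁, hi01, hεeq⟩ : ∃ i₀ i₁, i₀ ≠ i₁ ∧ ε i₀ = ε i₁ := by
    by_contra hc
    push Not at hc
    have hdiag : ∀ z, z * x = x * z → ∀ j, ∃ c : ℂ, ρ z (b j) = c • b j := by
      intro z hz j
      refine ⟨b.repr (ρ z (b j)) j, b.ext_elem fun l => ?_⟩
      rcases eq_or_ne l j with rfl | hlj
      · simp
      have hlin : b.coord l ∘ₗ ρ x = ε l • b.coord l := b.ext fun m => by
        simp only [LinearMap.comp_apply, LinearMap.smul_apply, hb, map_smul,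
          Basis.coord_apply, Basis.repr_self]
        rcases eq_or_ne l m with rfl | hlm
        · simp
        · simp [Finsupp.single_eq_of_ne hlm]
      have h1 : b.repr (ρ x (ρ z (b j))) l = ε l * b.repr (ρ z (b j)) l := by
        simpa using LinearMap.congr_fun hlin (ρ z (b j))
      have h2 : ρ x (ρ z (b j)) = ε j • ρ z (b j) := by
        rw [← Module.End.mul_apply, ← map_mul, ← hz, map_mul, Module.End.mul_apply, hb, map_smul]
      rw [h2, map_smul, Finsupp.smul_apply, smul_eq_mul] at h1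
      have h3 : (ε j - ε l) * b.repr (ρ z (b j)) l = 0 := by rw [sub_mul, h1, sub_self]
      have h4 := (mul_eq_zero.mp h3).resolve_left (sub_ne_zero.mpr (hc j l (Ne.symm hlj)))
      simp [h4, Finsupp.single_eq_of_ne hlj]
    apply hxc
    refine le_antisymm (fun z hz => ?_) (centralizer_le (Set.singleton_subset_iff.mpr hxP))
    rw [mem_centralizer_iff]
    intro y hy
    apply hinj
    rw [map_mul, map_mul]
    refine b.ext fun j => ?_
    obtain ⟨c, hc'⟩ := hdiag z (mem_centralizer_singleton_iff.mp hz) j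
    obtain ⟨d, hd'⟩ := hdiag y (hPcomm P y hy x hxP) j
    simp only [Module.End.mul_apply, hc', hd', map_smul, smul_smul, mul_comm]
  set e := ε i₀ with he
  have he1 : e ≠ 1 := by
    intro h1
    have hrem : ∀ j : Fin 3, ε j = 1 := by
      exact all_one hi01 h1 (hεeq.symm.trans h1)
        (hdetx.symm.trans (DegThree.det_eq_one hG ρ x))
    exact hx1 (hf x (by rw [htrx, hrem, hrem, hrem]; norm_num))
  -- a conjugate not commuting with `x`
  obtain ⟨g, hg⟩ : ∃ g : G, ¬ Commute x (g * x * g⁻¹) := by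
    by_contra hc
    push Not at hc
    haveI hN : (normalClosure ({x} : Set G)).Normal := normalClosure_normal
    rcases hN.eq_bot_or_eq_top with h | h
    · exact hx1 (Subgroup.mem_bot.mp (h ▸ subset_normalClosure rfl))
    · refine hG ⟨⟨fun a c => ?_⟩⟩
      have hall : ∀ a ∈ Group.conjugatesOfSet ({x} : Set G),
          ∀ c ∈ Group.conjugatesOfSet ({x} : Set G), a * c = c * a := by
        intro a ha c hc'
        simp only [Group.mem_conjugatesOfSet_iff, Set.mem_singleton_iff, exists_eq_left,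
          isConj_iff] at ha hc'
        obtain ⟨p, rfl⟩ := ha
        obtain ⟨q, rfl⟩ := hc'
        have h1 := (hc (p⁻¹ * q)).map (MulAut.conj p).toMonoidHom
        simp only [MulEquiv.coe_toMonoidHom, MulAut.conj_apply] at h1
        have h2 : p * (p⁻¹ * q * x * (p⁻¹ * q)⁻¹) * p⁻¹ = q * x * q⁻¹ := by group
        rw [h2] at h1
        exact h1.eq
      haveI := Subgroup.isMulCommutative_closure
        (k := Group.conjugatesOfSet ({x} : Set G)) hall
      have ha : a ∈ normalClosure ({x} : Set G) := h ▸ Subgroup.mem_top a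
      have hc' : c ∈ normalClosure ({x} : Set G) := h ▸ Subgroup.mem_top c
      exact congrArg Subtype.val
        (IsMulCommutative.is_comm.comm (⟨a, ha⟩ : Subgroup.closure _) ⟨c, hc'⟩)
  set x' := g * x * g⁻¹ with hx'
  -- the common eigenvector
  let W : Submodule ℂ (Fin n → ℂ) := LinearMap.ker (ρ x - e • 1)
  have hW : ∀ w, w ∈ W ↔ ρ x w = e • w := fun w => by
    simp [W, sub_eq_zero]
  have hW2 : 2 ≤ finrank ℂ W := by
    have h2 : LinearIndependent ℂ (fun t : Fin 2 => b (![i₀, i₁] t)) := by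
      refine b.linearIndependent.comp _ ?_
      intro p q hpq
      fin_cases p <;> fin_cases q <;> simp [hi01, Ne.symm hi01] at hpq ⊢
    have h3 := Submodule.finrank_mono (show Submodule.span ℂ
        (Set.range fun t : Fin 2 => b (![i₀, i₁] t)) ≤ W by
      rw [Submodule.span_le]
      rintro _ ⟨t, rfl⟩
      refine (hW _).mpr ?_
      fin_cases t
      · simp [hb, he]
      · simp [hb, ← hεeq])
    rw [finrank_span_eq_card h2] at h3
    simpa using h3
  obtain ⟨v, hvW, hvW', hv⟩ : ∃ v, v ∈ W ∧ v ∈ W.map (ρ g) ∧ v ≠ 0 := by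
    have hinjg : Function.Injective (ρ g) := fun a c h => by
      have := congrArg (ρ g⁻¹) h
      rwa [← Module.End.mul_apply, ← Module.End.mul_apply, ← map_mul, inv_mul_cancel, map_one] at this
    have h1 := Submodule.finrank_sup_add_finrank_inf_eq W (W.map (ρ g))
    have h2 : finrank ℂ (W.map (ρ g)) = finrank ℂ W :=
      (Submodule.equivMapOfInjective _ hinjg W).finrank_eq.symm
    have h3 := Submodule.finrank_le (W ⊔ W.map (ρ g))
    have h4 : W ⊓ W.map (ρ g) ≠ ⊥ := fun h => by
      rw [h, finrank_bot] at h1; omega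
    obtain ⟨v, hv, hv0⟩ := Submodule.exists_mem_ne_zero_of_ne_bot h4
    exact ⟨v, hv.1, hv.2, hv0⟩
  have hxv : ρ x v = e • v := (hW v).mp hvW
  have hxv' : ρ x' v = e • v := by
    obtain ⟨w, hw, rfl⟩ := Submodule.mem_map.mp hvW'
    have h : x' * g = g * x := by rw [hx']; group
    rw [← Module.End.mul_apply, ← map_mul, h, map_mul, Module.End.mul_apply, (hW w).mp hw,
      map_smul]
  set S := lineStab ρ v hv with hS
  set φ := (lineChar ρ v hv).toHomUnits with hφ
  have hxS : x ∈ S := ⟨e, hxv⟩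
  have hxS' : x' ∈ S := ⟨e, hxv'⟩
  have hlx : lineChar ρ v hv ⟨x, hxS⟩ = e := by
    refine smul_left_injective ℂ hv ?_
    exact (lineChar_spec ρ v hv ⟨x, hxS⟩).symm.trans hxv
  have hStop : S ≠ ⊤ := by
    intro h
    let f : G →* ℂ := (lineChar ρ v hv).comp
      ((MonoidHom.id G).codRestrict S fun a => h ▸ Subgroup.mem_top a)
    exact he1 (hlx.symm.trans (DegThree.hom_eq_one hG f x))
  -- the stabilizer is not solvable
  have hxr : ∃ a, orderOf x = r ^ a := Element.orderOf_eq_pow_of_mem_isPGroup P.isPGroup' hxP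
  have hSns : ¬ Group.IsSolvable S := by
    intro hsol
    obtain ⟨Q⟩ := (inferInstance : Nonempty (Sylow r S))
    haveI := LinearBound.sylow_normal_of_small (PSolv.isPSolvable_of_isSolvable hsol)
      (Char.isCharacter_restrict (Char.isCharacter_of_irr χ.2) S)
      (LinearBound.Faithful.res hfaith S)
      (by rw [LinearBound.charDegree_res, hk]; omega) Q
    have hmemQ : ∀ y : S, (∃ a, orderOf y = r ^ a) → y ∈ (Q : Subgroup S) := by
      rintro y ⟨a, ha⟩
      obtain ⟨Q', hQ'⟩ := (IsPGroup.of_card (G := Subgroup.zpowers y) (n := a)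
        (by rw [Nat.card_zpowers, ha])).exists_le_sylow
      obtain ⟨c, hc⟩ := MulAction.exists_smul_eq S Q Q'
      have hQQ : Q' = Q := hc ▸ Sylow.smul_eq_of_normal
      exact hQQ ▸ hQ' (Subgroup.mem_zpowers y)
    obtain ⟨Q₀, hQ₀⟩ := (Q.isPGroup'.map S.subtype).exists_le_sylow
    have m1 : x ∈ (Q₀ : Subgroup G) := hQ₀ ⟨⟨x, hxS⟩, hmemQ _ (by
      obtain ⟨a, ha⟩ := hxr
      exact ⟨a, by rw [← ha, ← Subgroup.orderOf_coe]⟩), rfl⟩
    have m2 : x' ∈ (Q₀ : Subgroup G) := hQ₀ ⟨⟨x', hxS'⟩, hmemQ _ (by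
      obtain ⟨a, ha⟩ := hxr
      refine ⟨a, ?_⟩
      rw [← ha, ← Subgroup.orderOf_coe]
      exact orderOf_injective (MulAut.conj g).toMonoidHom (MulAut.conj g).injective x), rfl⟩
    exact hg (hPcomm Q₀ x m1 x' m2)
  -- the kernel has order divisible by `2`, `3` and `r`
  have hKns : ¬ Group.IsSolvable φ.ker := fun h => hSns (by
    haveI : Group.IsSolvable ℂˣ := Group.isSolvable_of_comm mul_comm
    exact Group.isSolvable_of_ker_le_range φ.ker.subtype φ (by simp))
  have hdvd : ∀ p : ℕ, p = 2 ∨ p = 3 ∨ p = r → p ∣ Nat.card φ.ker := by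
    intro p hp
    by_contra hnd
    apply hKns
    have hKG : Nat.card φ.ker ∣ 3 * 2 ^ i * r ^ 2 :=
      hcard ▸ (φ.ker.card_subgroup_dvd_card).trans S.card_subgroup_dvd_card
    have hprimes : ∀ s : ℕ, s.Prime → s ∣ Nat.card φ.ker → s ≠ p ∧ (s = 2 ∨ s = 3 ∨ s = r) := by
      intro s hs hd
      refine ⟨fun e => hnd (e ▸ hd), ?_⟩
      rcases hs.dvd_mul.mp (hd.trans hKG) with h | h
      · rcases hs.dvd_mul.mp h with h | h
        · exact Or.inr (Or.inl ((Nat.prime_dvd_prime_iff_eq hs Nat.prime_three).mp h))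
        · exact Or.inl ((Nat.prime_dvd_prime_iff_eq hs Nat.prime_two).mp (hs.dvd_of_dvd_pow h))
      · exact Or.inr (Or.inr ((Nat.prime_dvd_prime_iff_eq hs hr).mp (hs.dvd_of_dvd_pow h)))
    rcases hp with rfl | rfl | rfl
    · exact Char.solvable_of_card_eq_pow_mul_pow 3 r Nat.prime_three hr _ rfl fun s hs hd => by
        have := hprimes s hs hd; tauto
    · exact Char.solvable_of_card_eq_pow_mul_pow 2 r Nat.prime_two hr _ rfl fun s hs hd => by
        have := hprimes s hs hd; tauto
    · exact Char.solvable_of_card_eq_pow_mul_pow 2 3 Nat.prime_two Nat.prime_three _ rfl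
        fun s hs hd => by
          have := hprimes s hs hd; tauto
  haveI : Fact (Nat.Prime 2) := ⟨Nat.prime_two⟩
  obtain ⟨J, hJ⟩ := exists_prime_orderOf_dvd_card' (G := φ.ker) 2 (hdvd 2 (Or.inl rfl))
  have hJo : orderOf (((J : S) : G)) = 2 := by rw [Subgroup.orderOf_coe, Subgroup.orderOf_coe, hJ]
  have hfix : ∀ y : φ.ker, ρ ((y : S) : G) v = v := fun y => by
    have h : lineChar ρ v hv (y : S) = 1 := congrArg Units.val y.2
    rw [lineChar_spec, h, one_smul]
  have hcent : S ≤ centralizer ({((J : S) : G)} : Set G) := by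
    intro h hh
    have hc : (⟨h, hh⟩ : S) * J * (⟨h, hh⟩ : S)⁻¹ ∈ φ.ker :=
      (inferInstance : φ.ker.Normal).conj_mem _ J.2 _
    have := involution_unique hG ρ hV hf hv
      (s := (((⟨h, hh⟩ : S) * J * (⟨h, hh⟩ : S)⁻¹ : S) : G)) (t := ((J : S) : G))
      (by rw [← hJo, Subgroup.coe_mul, Subgroup.coe_mul, Subgroup.coe_inv]
          exact orderOf_injective (MulAut.conj h).toMonoidHom (MulAut.conj h).injective _)
      hJo (hfix ⟨_, hc⟩) (hfix J)
    rw [Subgroup.coe_mul, Subgroup.coe_mul, Subgroup.coe_inv] at this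
    rw [mem_centralizer_singleton_iff]
    exact mul_inv_eq_iff_eq_mul.mp this
  -- `3 r²` divides the order of the stabilizer
  have hdvdS : 3 * r ^ 2 ∣ Nat.card S := by
    have hrange : r ∣ Nat.card φ.range := by
      have h1 : orderOf (φ ⟨x, hxS⟩) ∣ orderOf (⟨x, hxS⟩ : S) := orderOf_map_dvd _ _
      obtain ⟨a, ha⟩ := hxr
      rw [← Subgroup.orderOf_coe, ha] at h1
      obtain ⟨c, -, hc⟩ := (Nat.dvd_prime_pow hr).mp h1
      have hc0 : c ≠ 0 := fun h => by
        rw [h, pow_zero, orderOf_eq_one_iff] at hc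
        exact he1 (hlx.symm.trans (congrArg Units.val hc))
      calc r ∣ orderOf (φ ⟨x, hxS⟩) := hc ▸ dvd_pow_self r hc0
        _ = orderOf (⟨φ ⟨x, hxS⟩, ⟨_, rfl⟩⟩ : φ.range) := Subgroup.orderOf_coe (⟨φ ⟨x, hxS⟩, ⟨_, rfl⟩⟩ : φ.range)
        _ ∣ _ := orderOf_dvd_natCard _
    rw [← φ.ker.card_mul_index, Subgroup.index_ker]
    have h3r : 3 * r ∣ Nat.card φ.ker :=
      ((Nat.coprime_primes Nat.prime_three hr).mpr hr3.symm).mul_dvd_of_dvd_of_dvd
        (hdvd 3 (by tauto)) (hdvd r (by tauto))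
    rw [pow_two, ← mul_assoc]
    exact Nat.mul_dvd_mul h3r hrange
  -- the class of `J` has prime power size
  obtain ⟨t, ht⟩ := hdvdS.trans (Subgroup.card_dvd_of_le hcent)
  have hidx := Subgroup.card_mul_index (centralizer ({((J : S) : G)} : Set G))
  rw [ht, hcard] at hidx
  have hm : t * (centralizer ({((J : S) : G)} : Set G)).index = 2 ^ i := by
    refine Nat.eq_of_mul_eq_mul_left (show 0 < 3 * r ^ 2 by positivity) ?_
    linarith
  obtain ⟨l, -, hl⟩ := (Nat.dvd_prime_pow Nat.prime_two).mp (hm ▸ dvd_mul_left _ t)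
  have hJ1 : ((J : S) : G) ≠ 1 := fun h => by rw [h, orderOf_one] at hJo; omega
  exact (fun hp : (Nat.card G).Prime => hG (isMulCommutative_of_prime_card hp))
    (Char.prime_card_of_prime_power_class 2 l Nat.prime_two _ hJ1 hl)

end Cfsg.Agent.SmallGroups.ThreeTwoPowSquare
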